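import Cfsg.Agent.H716.RGDAb
import Cfsg.Agent.LieRecognition.SzMatrix
import Cfsg.Agent.BpLieP.Ree
import Cfsg.Agent.Mrg.Omega.ML.Ex.Ext

/-!
# The Sylow `r`-subgroups of `PSU₃(q)`, `Sz(q)`, `²G₂(q)`, `r | q`, are not abelian (helper730)
-/

set_option autoImplicit false
set_option linter.unusedSectionVars false

namespace Cfsg.Agent.H730.RankOneNA

open Cfsg

/-- Some Sylow `r`-subgroup is not abelian. -/
def NonabSyl (r : ℕ) (K : Type*) [Group K] : Prop := ∃ R : Sylow r K, ∃ a ∈ R, ∃ b ∈ R, a * b ≠ b * a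

theorem nonabSyl_of {r : ℕ} {K : Type*} [Group K] {H : Subgroup K} (hH : IsPGroup r H) {a b : K} (ha : a ∈ H)
    (hb : b ∈ H) (hab : a * b ≠ b * a) : NonabSyl r K := by
  obtain ⟨R, hR⟩ := hH.exists_le_sylow
  exact ⟨R, a, hR ha, b, hR hb, hab⟩

theorem nonabSyl_of_hom {r : ℕ} {A K : Type*} [Group A] [Group K] (f : A →* K) (hA : IsPGroup r A) {a b : A}
    (hab : f (a * b * a⁻¹ * b⁻¹) ≠ 1) : NonabSyl r K := by
  refine nonabSyl_of (H := f.range) (hA.of_surjective f.rangeRestrict f.rangeRestrict_surjective) ⟨a, rfl⟩ ⟨b, rfl⟩ ?_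
  intro h
  apply hab
  rw [map_mul, map_mul, map_mul, map_inv, map_inv, h]
  group

theorem NonabSyl.congr {r : ℕ} {K L : Type*} [Group K] [Group L] (e : K ≃* L) (h : NonabSyl r K) : NonabSyl r L := by
  obtain ⟨R, a, ha, b, hb, hab⟩ := h
  refine nonabSyl_of (H := (R : Subgroup K).map e.toMonoidHom) (R.isPGroup'.map _) ⟨a, ha, rfl⟩ ⟨b, hb, rfl⟩ ?_
  intro h
  apply hab
  apply e.injective
  simpa using h

/-! ### `PSU₃` -/

section U3

open Cfsg.Agent.TitsThree.Siegel Cfsg.Agent.TitsThree.SiegelGen Cfsg.Agent.TitsThree.WittFrame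
open Cfsg.Agent.TitsThree.FrameCN Cfsg.Agent.TitsThree.WBridge Cfsg.Agent.TitsThree.KSideU
  Cfsg.Agent.TitsThree.LineBorel Cfsg.Agent.TitsThree

variable {F : Type*} [Field F] {V : Type*} [AddCommGroup V] [Module F V] {H : HForm F V}

section

variable {ι : Type*} [DecidableEq ι] (Fr : Frame H ι)

theorem adm_pow_w (p : Fr.Adm) (n : ℕ) : (p ^ n).w = n • p.w := by
  induction n with
  | zero => simp
  | succ n ih => rw [pow_succ, Frame.Adm.mul_w, ih, succ_nsmul]

theorem adm_pow_c {p : Fr.Adm} (hp : p.w = 0) (n : ℕ) : (p ^ n).c = n • p.c := by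
  induction n with
  | zero => simp
  | succ n ih =>
    rw [pow_succ, Frame.Adm.mul_c, ih, hp, HForm.zero_left, mul_zero, sub_zero, succ_nsmul]

theorem isPGroup_adm (r : ℕ) [CharP F r] : IsPGroup r Fr.Adm := by
  intro p
  refine ⟨2, ?_⟩
  have h1 : (p ^ r).w = 0 := by
    rw [adm_pow_w, ← Nat.cast_smul_eq_nsmul F, CharP.cast_eq_zero, zero_smul]
  rw [pow_two, pow_mul]
  ext
  · rw [adm_pow_w, h1, smul_zero]
    rfl
  · rw [adm_pow_c _ h1, ← Nat.cast_smul_eq_nsmul F, CharP.cast_eq_zero, zero_smul]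
    rfl

end

theorem nonabSyl_of_model {m : ℕ} {Fr : Frame H (Fin m)} {K : Type*} [Group K] (M : Model Fr K) (x : Fin m × Bool)
    {r : ℕ} [CharP F r] (p q : Fr.Adm) (hpq : H.h q.w p.w ≠ H.h p.w q.w) : NonabSyl r K := by
  let f : Fr.Adm →* K :=
    { toFun := fun p => M.φ ⟨Fr.Z x p, M.hZ _ _⟩
      map_one' := by
        rw [← map_one M.φ]
        congr 1
        exact Subtype.ext (Fr.Z_one x)
      map_mul' := fun p q => by
        rw [← map_mul]
        congr 1
        exact Subtype.ext (Fr.Z_mul x p q) }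
  refine nonabSyl_of_hom f (isPGroup_adm Fr r) (a := p) (b := q) ?_
  intro h1
  obtain ⟨z, hz⟩ : ∃ z : Fr.Adm, z = p * q * p⁻¹ * q⁻¹ := ⟨_, rfl⟩
  rw [← hz] at h1
  have hz1 : z * (q * p) = p * q := by rw [hz]; group
  have hw : z.w = 0 := by
    rw [hz]
    simp
  have hc : z.c ≠ 0 := by
    intro h0
    have h2 := congrArg Frame.Adm.c hz1
    rw [Frame.Adm.mul_c (p := z), h0, hw, HForm.zero_right, mul_zero, Frame.Adm.mul_c, Frame.Adm.mul_c] at h2
    apply hpq
    have h3 : H.ε⁻¹ * H.h q.w p.w = H.ε⁻¹ * H.h p.w q.w := by linear_combination h2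
    exact mul_left_cancel₀ (inv_ne_zero H.ε_ne) h3
  obtain ⟨a, ha⟩ := M.ker (Fr.b (neg x)) ⟨Fr.Z x z, M.hZ _ _⟩ h1
  have h2 : Fr.Z x z (Fr.b (neg x)) = Fr.b (neg x) + (z.c * Fr.η x) • Fr.b x := by
    rw [Frame.Z, HForm.sie_apply, hw, HForm.zero_right, Fr.hb_neg_self, smul_zero, mul_zero, zero_smul, add_zero,
      sub_zero]
  change Fr.Z x z (Fr.b (neg x)) = a • Fr.b (neg x) at ha
  rw [h2] at ha
  have h3 := congrArg (fun v => H.h v (Fr.b (neg x))) ha
  simp only [H.add_left, H.smul_left, Fr.hb_self, Fr.hb_self_neg, mul_zero, zero_add] at h3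
  exact mul_ne_zero (mul_ne_zero hc (Fr.η_ne x)) (Fr.η_ne (neg x)) h3

theorem nonabSyl_PSU3 {F : Type*} [Field F] [Fintype F] {q : ℕ} (hF : Fintype.card F = q ^ 2) {r : ℕ} [Fact r.Prime]
    [CharP F r] : NonabSyl r (PSU 3 F q) := by
  obtain ⟨W, d, hd, hV0⟩ := exists_wframe_odd (N := 3) hF (m := 1) rfl
  have hdV : d ∈ W.V0 := by rw [hV0]; exact Submodule.mem_span_singleton_self d
  -- an element not fixed by the conjugation
  obtain ⟨a, ha⟩ : ∃ a : F, a ^ q ≠ a := by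
    by_contra hcon
    push Not at hcon
    have hq2 : 2 ≤ q := by
      by_contra hlt
      have h1 : Fintype.card F ≤ 1 := by
        rw [hF]
        have : q ≤ 1 := by omega
        calc q ^ 2 ≤ 1 ^ 2 := Nat.pow_le_pow_left this 2
          _ = 1 := by norm_num
      have h2 := Fintype.one_lt_card (α := F)
      omega
    classical
    have h1 : (Finset.univ : Finset F) ⊆ (Polynomial.X ^ q - Polynomial.X : Polynomial F).roots.toFinset := by
      intro b _
      rw [Multiset.mem_toFinset, Polynomial.mem_roots (FiniteField.X_pow_card_sub_X_ne_zero F (by omega)),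
        Polynomial.IsRoot.def, Polynomial.eval_sub, Polynomial.eval_pow, Polynomial.eval_X, hcon, sub_self]
    have h2 := (Finset.card_le_card h1).trans (Multiset.toFinset_card_le _)
    have h3 := h2.trans (Polynomial.card_roots' _)
    rw [FiniteField.X_pow_card_sub_X_natDegree_eq F (by omega), Finset.card_univ, hF] at h3
    nlinarith
  obtain ⟨c, hc⟩ := (PU hF 3).ex d
  obtain ⟨c', hc'⟩ := (PU hF 3).ex (a • d)
  refine nonabSyl_of_model (KInstU.model hF le_rfl W) (0, true) ⟨d, c, hdV, hc⟩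
    ⟨a • d, c', W.V0.smul_mem a hdV, hc'⟩ ?_
  change (HU hF 3).h (a • d) d ≠ (HU hF 3).h d (a • d)
  rw [HForm.smul_left, HForm.smul_right, HU_h, HU_σ, hd, mul_one, mul_one]
  exact Ne.symm ha

end U3

/-! ### `Sz` -/

section Sz

open Cfsg.Agent.LieRecognition

theorem nonabSyl_sz {G : Type*} [Group G] (h : Cfsg.Lie.IsoSuzuki G) : NonabSyl 2 G := by
  obtain ⟨K, i1, i2, m, hm, hK, ⟨e⟩⟩ := h
  refine NonabSyl.congr e.symm ?_
  have H := LieRecognition.SzMatrix.good hK
  have hp : IsPGroup 2 H.unip := by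
    refine IsPGroup.of_card (n := 2 * (2 * m + 1)) ?_
    rw [H.card_unip, Nat.card_eq_fintype_card, hK, ← pow_mul, mul_comm]
  obtain ⟨a, ha⟩ : ∃ a : K, SzMatrix.theta hK a ≠ a := by
    by_contra hcon
    push Not at hcon
    have h1 : ∀ a : K, a ^ 2 = a := fun a => by rw [← H.sq, hcon, hcon]
    have h2 : ∀ a : K, a = 0 ∨ a = 1 := fun a => by
      have h3 : a * (a - 1) = 0 := by linear_combination h1 a
      rcases mul_eq_zero.1 h3 with h | h
      · exact Or.inl h
      · exact Or.inr (sub_eq_zero.1 h)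
    classical
    have h4 : Fintype.card K ≤ 2 := by
      have : (Finset.univ : Finset K) ⊆ {0, 1} := fun a _ => by
        rcases h2 a with h | h <;> simp [h]
      exact (Finset.card_le_card this).trans Finset.card_le_two
    rw [hK] at h4
    have h5 : 2 ^ 3 ≤ 2 ^ (2 * m + 1) := Nat.pow_le_pow_right (by norm_num) (by omega)
    omega
  refine nonabSyl_of hp (H.u_mem_unip 1 0) (H.u_mem_unip a 0) ?_
  intro h
  rw [H.u_mul, H.u_mul] at h
  have h2 := (H.u_inj h).2
  rw [map_one] at h2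
  apply ha
  linear_combination h2

end Sz

/-! ### `²G₂` -/

section Ree

open Cfsg.Agent.LieRecognition.ReeAbs Cfsg.Agent.LieRecognition.ReeSylowThree Cfsg.Agent.LieRecognition.ReeSplit
  Cfsg.Agent.BpLieP.Ree

theorem nonabSyl_ree {G : Type*} [Group G] (h : Cfsg.Lie.IsoRee G) : NonabSyl 3 G := by
  obtain ⟨K, _, _, m, hm, hK, ⟨e⟩⟩ := h
  refine NonabSyl.congr e.symm ?_
  obtain ⟨U, h, n, D⟩ := Cfsg.Agent.ChevalleyStructure.Ree.Data.exists_data hK
  refine nonabSyl_of (isPGroup_uSub hK D) (a := U 1 0 0) (b := U 0 1 0) ⟨_, _, _, rfl⟩ ⟨_, _, _, rfl⟩ ?_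
  intro h
  rw [D.U_mul, D.U_mul] at h
  obtain ⟨-, -, h2⟩ := U_injective D h
  have h3 : ((0 : K)) ^ (3 ^ (m + 1)) = 0 := zero_pow (by positivity)
  simp only [h3] at h2
  simp at h2

end Ree

end Cfsg.Agent.H730.RankOneNA
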